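import Cfsg.Agent.H471.KPiSylow
import Cfsg.Agent.Transfer.NormalPComplement
set_option linter.all false

/-!
The criterion `k_p(G) > (p + 1)|P| / (2p)` iff `G` has a normal `p`-complement and `P` is abelian,
`p` odd; and the passage between the counts of classes in the statements and `kPi`.
-/

set_option autoImplicit false

open scoped Pointwise

namespace Cfsg.Agent.H471.KPi

open Cfsg.Agent.H529.PiElem

variable {G : Type*} [Group G]

theorem forall_carrier_iff (G : Type*) [Group G] (Q : G → Prop) (hQ : ∀ g x : G, Q g → Q (x * g * x⁻¹))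
    (g : G) : (∀ x ∈ (ConjClasses.mk g).carrier, Q x) ↔ Q g := by
  constructor
  · intro h; exact h g ConjClasses.mem_carrier_mk
  · intro h x hx
    rw [ConjClasses.mem_carrier_iff_mk_eq, ConjClasses.mk_eq_mk_iff_isConj] at hx
    obtain ⟨c, hc⟩ := isConj_iff.1 hx.symm
    rw [← hc]
    exact hQ g c h

theorem card_classes_eq_kPi (π : Set ℕ) (G : Type*) [Group G] :
    Nat.card {c : ConjClasses G // ∀ x ∈ c.carrier, IsPiEl π x} = kPi π G := by
  apply Nat.card_congr
  apply Equiv.subtypeEquivRight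
  intro c
  obtain ⟨g, rfl⟩ := c.exists_rep
  rw [forall_carrier_iff G (IsPiEl π) (fun g x h => isPiEl_conj π h) g]
  exact (mem_piClasses_iff π g).symm

theorem card_classes_eq_kPi' [Finite G] {p : ℕ} (hp : p.Prime) :
    Nat.card {c : ConjClasses G // ∀ x ∈ c.carrier, ∃ k : ℕ, orderOf x = p ^ k} = kPi {p} G := by
  rw [← card_classes_eq_kPi]
  apply Nat.card_congr
  apply Equiv.subtypeEquivRight
  intro c
  apply forall_congr'
  intro x
  apply imp_congr_right
  intro _
  exact (isPiEl_singleton_iff hp).symm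

/-- the abelian, `p`-nilpotent case -/
theorem card_le_kPi_of_complement [Finite G] {p : ℕ} [hp : Fact p.Prime] (P : Sylow p G)
    (N : Subgroup G) (hN : N.Normal) (hc : N.IsComplement' (P : Subgroup G))
    (hab : IsMulCommutative ↥(P : Subgroup G)) : Nat.card ↥(P : Subgroup G) ≤ kPi {p} G := by
  have hpel : ∀ x : ↥(P : Subgroup G), IsPiEl {p} (x : G) := by
    intro x
    rw [isPiEl_singleton_iff hp.out]
    obtain ⟨k, hk⟩ := IsPGroup.iff_orderOf.1 P.isPGroup' x
    exact ⟨k, by rw [Subgroup.orderOf_coe, hk]⟩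
  let f : ↥(P : Subgroup G) → PiClasses {p} G := fun x =>
    ⟨ConjClasses.mk (x : G), (mem_piClasses_iff {p} (x : G)).2 (hpel x)⟩
  apply Nat.card_le_card_of_injective f
  intro x y hxy
  have h1 : ConjClasses.mk (x : G) = ConjClasses.mk (y : G) := congrArg Subtype.val hxy
  rw [ConjClasses.mk_eq_mk_iff_isConj, isConj_iff] at h1
  obtain ⟨g, hg⟩ := h1
  have hGN : ∀ a b : G ⧸ N, a * b = b * a := by
    intro a b
    obtain ⟨a, rfl⟩ := QuotientGroup.mk_surjective a
    obtain ⟨b, rfl⟩ := QuotientGroup.mk_surjective b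
    have hex : ∀ g : G, ∃ x : ↥(P : Subgroup G), ((g : G) : G ⧸ N) = ((x : G) : G ⧸ N) := by
      intro g
      obtain ⟨⟨n, x⟩, hnx, -⟩ := hc.existsUnique g
      refine ⟨x, ?_⟩
      have hnx' : (n : G) * (x : G) = g := hnx
      rw [← hnx', QuotientGroup.mk_mul, (QuotientGroup.eq_one_iff (n : G)).2 n.2, one_mul]
    obtain ⟨x, hx⟩ := hex a
    obtain ⟨y, hy⟩ := hex b
    rw [hx, hy, ← QuotientGroup.mk_mul, ← QuotientGroup.mk_mul]
    exact congrArg (fun z : ↥(P : Subgroup G) => ((z : G) : G ⧸ N)) (hab.is_comm.comm x y)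
  have h2 : ((x : G) : G ⧸ N) = ((y : G) : G ⧸ N) := by
    rw [← hg, QuotientGroup.mk_mul, QuotientGroup.mk_mul, hGN _ ((x : G) : G ⧸ N), mul_assoc,
      QuotientGroup.mk_inv, mul_inv_cancel, mul_one]
  rw [QuotientGroup.eq] at h2
  have h3 : (x : G)⁻¹ * (y : G) ∈ N ⊓ (P : Subgroup G) :=
    Subgroup.mem_inf.2 ⟨h2, Subgroup.mul_mem _ (Subgroup.inv_mem _ x.2) y.2⟩
  rw [hc.disjoint.eq_bot, Subgroup.mem_bot, inv_mul_eq_one] at h3
  exact Subtype.ext h3

/-- **the criterion**, forward direction -/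
theorem complement_of_large [Finite G] {p : ℕ} [hp : Fact p.Prime] (hp2 : p ≠ 2) (P : Sylow p G)
    (h : (p + 1) * Nat.card ↥(P : Subgroup G) < 2 * p * kPi {p} G) :
    (∃ N : Subgroup G, N.Normal ∧ N.IsComplement' (P : Subgroup G)) ∧
      IsMulCommutative ↥(P : Subgroup G) := by
  have hp3 : 3 ≤ p := by
    have := hp.out.two_le
    omega
  have hPpos : 0 < Nat.card ↥(P : Subgroup G) := Nat.card_pos
  have hab : IsMulCommutative ↥(P : Subgroup G) := by
    by_contra hna
    have h1 := kPi_nonabelian {p} (P : Subgroup G) P.isPGroup' (exists_conj_mem P) hna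
    obtain ⟨q, rfl⟩ : ∃ q, p = q + 3 := ⟨p - 3, by omega⟩
    have e1 : (q + 3) ^ 2 + (q + 3) - 1 = q ^ 2 + 7 * q + 11 := by
      have : (q + 3) ^ 2 + (q + 3) = q ^ 2 + 7 * q + 11 + 1 := by ring
      omega
    rw [e1] at h1
    have h2 : (q + 3) ^ 2 * ((q + 3 + 1) * Nat.card ↥(P : Subgroup G)) <
        (q + 3) ^ 2 * (2 * (q + 3) * kPi {q + 3} G) := Nat.mul_lt_mul_of_pos_left h (by positivity)
    have h3 : (q + 3) ^ 2 * (2 * (q + 3) * kPi {q + 3} G) ≤
        2 * ((q ^ 2 + 7 * q + 11) * Nat.card ↥(P : Subgroup G)) := by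
      calc (q + 3) ^ 2 * (2 * (q + 3) * kPi {q + 3} G) = 2 * ((q + 3) ^ 3 * kPi {q + 3} G) := by ring
        _ ≤ _ := Nat.mul_le_mul_left _ h1
    have h4 := h2.trans_le h3
    have h5 : 2 * ((q ^ 2 + 7 * q + 11) * Nat.card ↥(P : Subgroup G)) ≤
        (q + 3) ^ 2 * ((q + 3 + 1) * Nat.card ↥(P : Subgroup G)) := by
      rw [← mul_assoc, ← mul_assoc]
      apply Nat.mul_le_mul_right
      nlinarith [Nat.zero_le (q ^ 3), Nat.zero_le (q ^ 2), Nat.zero_le q]
    omega
  refine ⟨?_, hab⟩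
  have hle : Subgroup.normalizer ((P : Subgroup G) : Set G) ≤
      Subgroup.centralizer ((P : Subgroup G) : Set G) := by
    intro n hn
    by_contra hnc
    have := kPi_action_two {p} (P : Subgroup G) P.isPGroup' (exists_conj_mem P) hn hnc
    omega
  exact ⟨(MonoidHom.transferSylow P hle).ker, inferInstance,
    MonoidHom.ker_transferSylow_isComplement' P hle⟩

end Cfsg.Agent.H471.KPi
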