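import Cfsg.Agent.H470.MetaMain
set_option linter.all false

/-!
Class sizes and power subgroups of metacyclic `p`-groups, `p` odd, in the symplectic coordinates
of `Cfsg.Agent.H470.MetaMain`.
-/

set_option autoImplicit false

namespace Cfsg.Agent.H471

open Cfsg.Agent.H470

section zmod

variable {p n : ℕ} [hpf : Fact p.Prime]

theorem zmod_mul_eq_zero_iff {j : ℕ} (hj : j ≤ n) (x : ZMod (p ^ n)) :
    ((p ^ j : ℕ) : ZMod (p ^ n)) * x = 0 ↔ ∃ y, x = ((p ^ (n - j) : ℕ) : ZMod (p ^ n)) * y := by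
  have hp := hpf.out
  have hsplit : ((p ^ n : ℕ) : ℤ) = ((p ^ j : ℕ) : ℤ) * ((p ^ (n - j) : ℕ) : ℤ) := by
    rw [← Nat.cast_mul, ← pow_add]; congr 2; omega
  constructor
  · intro h
    obtain ⟨z, rfl⟩ := ZMod.intCast_surjective x
    have h1 : (((p ^ j : ℕ) * z : ℤ) : ZMod (p ^ n)) = 0 := by push_cast; push_cast at h; exact h
    rw [ZMod.intCast_zmod_eq_zero_iff_dvd, hsplit,
      mul_dvd_mul_iff_left (by exact_mod_cast pow_ne_zero _ hp.ne_zero)] at h1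
    obtain ⟨y, rfl⟩ := h1
    exact ⟨(y : ZMod (p ^ n)), by push_cast; ring⟩
  · rintro ⟨y, rfl⟩
    rw [← mul_assoc, ← Nat.cast_mul, ← pow_add, show j + (n - j) = n by omega, ZMod.natCast_self,
      zero_mul]

omit hpf in
theorem pair_nsmul (k : ℕ) (v : ZMod (p ^ n) × ZMod (p ^ n)) :
    k • v = ((k : ZMod (p ^ n)) * v.1, (k : ZMod (p ^ n)) * v.2) := by
  apply Prod.ext
  · rw [Prod.smul_fst, nsmul_eq_mul]
  · rw [Prod.smul_snd, nsmul_eq_mul]

theorem pair_mul_eq_zero_iff {j : ℕ} (hj : j ≤ n) (v : ZMod (p ^ n) × ZMod (p ^ n)) :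
    (p ^ j) • v = 0 ↔ ∃ w, v = ((p ^ (n - j) : ℕ) : ZMod (p ^ n)) • w := by
  have h1 : (p ^ j) • v = 0 ↔ (((p ^ j : ℕ) : ZMod (p ^ n)) * v.1 = 0 ∧
      ((p ^ j : ℕ) : ZMod (p ^ n)) * v.2 = 0) := by
    rw [pair_nsmul, Prod.mk_eq_zero]
  rw [h1, zmod_mul_eq_zero_iff hj, zmod_mul_eq_zero_iff hj]
  constructor
  · rintro ⟨⟨y, hy⟩, ⟨z, hz⟩⟩
    exact ⟨(y, z), Prod.ext hy hz⟩
  · rintro ⟨w, hw⟩
    exact ⟨⟨w.1, by rw [hw]; rfl⟩, ⟨w.2, by rw [hw]; rfl⟩⟩

theorem card_zmod_torsion {j : ℕ} (hj : j ≤ n) :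
    Nat.card {x : ZMod (p ^ n) // ((p ^ j : ℕ) : ZMod (p ^ n)) * x = 0} = p ^ j := by
  have hp := hpf.out
  have hne : NeZero (p ^ n) := ⟨pow_ne_zero _ hp.ne_zero⟩
  let f : ZMod (p ^ n) →+* ZMod (p ^ (n - j)) := ZMod.castHom (pow_dvd_pow p (by omega)) _
  have hf : Function.Surjective f := ZMod.castHom_surjective _
  have h1 : Nat.card (f.toAddMonoidHom.ker) * Nat.card (ZMod (p ^ (n - j))) = Nat.card (ZMod (p ^ n)) := by
    have h2 := f.toAddMonoidHom.ker.index_mul_card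
    rw [AddSubgroup.index_ker, AddMonoidHom.range_eq_top.2 hf, AddSubgroup.card_top] at h2
    rw [mul_comm]; exact h2
  rw [Nat.card_zmod, Nat.card_zmod] at h1
  have h3 : Nat.card (f.toAddMonoidHom.ker) = p ^ j := by
    have h4 : p ^ n = p ^ j * p ^ (n - j) := by rw [← pow_add]; congr 1; omega
    exact Nat.eq_of_mul_eq_mul_right (pow_pos hp.pos _) (h1.trans h4)
  refine Eq.trans ?_ h3
  apply Nat.card_congr
  apply Equiv.subtypeEquivRight
  intro x
  rw [zmod_mul_eq_zero_iff hj, AddMonoidHom.mem_ker]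
  obtain ⟨z, rfl⟩ := ZMod.intCast_surjective x
  have h5 : f.toAddMonoidHom (z : ZMod (p ^ n)) = (z : ZMod (p ^ (n - j))) := map_intCast f z
  rw [h5]
  constructor
  · rintro ⟨y, hy⟩
    rw [← h5, hy]
    change f _ = 0
    rw [map_mul, map_natCast, ZMod.natCast_self, zero_mul]
  · intro h
    rw [ZMod.intCast_zmod_eq_zero_iff_dvd] at h
    obtain ⟨y, rfl⟩ := h
    exact ⟨(y : ZMod (p ^ n)), by push_cast; ring⟩

theorem card_pair_torsion {j : ℕ} (hj : j ≤ n) :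
    Nat.card {v : ZMod (p ^ n) × ZMod (p ^ n) // (p ^ j) • v = 0} = p ^ (2 * j) := by
  rw [two_mul, pow_add]
  conv_rhs => rw [← card_zmod_torsion (n := n) hj, ← Nat.card_prod]
  apply Nat.card_congr
  refine ⟨fun v => (⟨v.1.1, ?_⟩, ⟨v.1.2, ?_⟩), fun w => ⟨(w.1.1, w.2.1), ?_⟩, ?_, ?_⟩
  · have := v.2
    rw [pair_nsmul, Prod.mk_eq_zero] at this
    exact this.1
  · have := v.2
    rw [pair_nsmul, Prod.mk_eq_zero] at this
    exact this.2
  · rw [pair_nsmul, Prod.mk_eq_zero]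
    exact ⟨w.1.2, w.2.2⟩
  · intro v; rfl
  · intro w; rfl

omit hpf in
theorem addOrderOf_dvd (v : ZMod (p ^ n) × ZMod (p ^ n)) : addOrderOf v ∣ p ^ n := by
  rw [addOrderOf_dvd_iff_nsmul_eq_zero, pair_nsmul, ZMod.natCast_self, zero_mul, zero_mul]
  rfl

theorem addOrderOf_le_iff {j : ℕ} (v : ZMod (p ^ n) × ZMod (p ^ n)) :
    addOrderOf v ≤ p ^ j ↔ (p ^ j) • v = 0 := by
  have hp := hpf.out
  obtain ⟨i, hi, h⟩ := (Nat.dvd_prime_pow hp).1 (addOrderOf_dvd v)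
  rw [← addOrderOf_dvd_iff_nsmul_eq_zero, h, Nat.pow_le_pow_iff_right hp.one_lt,
    Nat.pow_dvd_pow_iff_le_right hp.one_lt]

theorem card_addOrderOf_eq {i : ℕ} (hi : 1 ≤ i) (hin : i ≤ n) :
    Nat.card {v : ZMod (p ^ n) × ZMod (p ^ n) // addOrderOf v = p ^ i} =
      p ^ (2 * i) - p ^ (2 * i - 2) := by
  classical
  have hp := hpf.out
  have hne : NeZero (p ^ n) := ⟨pow_ne_zero _ hp.ne_zero⟩
  have h1 : ∀ v : ZMod (p ^ n) × ZMod (p ^ n), addOrderOf v = p ^ i ↔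
      ((p ^ i) • v = 0 ∧ ¬ (p ^ (i - 1)) • v = 0) := by
    intro v
    rw [← addOrderOf_le_iff, ← addOrderOf_le_iff]
    obtain ⟨j, hj, h⟩ := (Nat.dvd_prime_pow hp).1 (addOrderOf_dvd v)
    rw [h, Nat.pow_le_pow_iff_right hp.one_lt, Nat.pow_le_pow_iff_right hp.one_lt]
    constructor
    · intro h2
      have := Nat.pow_right_injective hp.two_le h2
      omega
    · intro h2
      congr 1; omega
  have h2 : Nat.card {v : ZMod (p ^ n) × ZMod (p ^ n) // (p ^ i) • v = 0} =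
      Nat.card {v : ZMod (p ^ n) × ZMod (p ^ n) // addOrderOf v = p ^ i} +
      Nat.card {v : ZMod (p ^ n) × ZMod (p ^ n) // (p ^ (i - 1)) • v = 0} := by
    simp only [Nat.card_eq_fintype_card, Fintype.card_subtype]
    rw [← Finset.card_union_of_disjoint]
    · congr 1
      ext v
      simp only [Finset.mem_filter, Finset.mem_univ, true_and, Finset.mem_union]
      rw [h1]
      constructor
      · intro h3
        by_cases h4 : (p ^ (i - 1)) • v = 0
        · exact Or.inr h4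
        · exact Or.inl ⟨h3, h4⟩
      · rintro (h3 | h3)
        · exact h3.1
        · have : p ^ i = p * p ^ (i - 1) := by rw [← pow_succ']; congr 1; omega
          rw [this, mul_smul, h3, smul_zero]
    · rw [Finset.disjoint_filter]
      intro v _ h3 h4
      exact ((h1 v).1 h3).2 h4
  rw [card_pair_torsion hin, card_pair_torsion (show i - 1 ≤ n by omega)] at h2
  rw [h2, show 2 * (i - 1) = 2 * i - 2 by omega, Nat.add_sub_cancel]

end zmod

section grp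

variable {p : ℕ} {G : Type*} [Group G] (c : MetaCoord p G) [hpf : Fact p.Prime]

theorem W_zpowers [Finite G] (hp2 : p ≠ 2) (g : G) :
    c.W hp2 (Subgroup.zpowers g) = AddSubgroup.zmultiples (c.D g) := by
  have hne : NeZero (p ^ c.n) := ⟨pow_ne_zero _ hpf.out.ne_zero⟩
  ext v
  rw [MetaCoord.mem_W_iff, AddSubgroup.mem_zmultiples_iff]
  constructor
  · rintro ⟨x, hx, rfl⟩
    rw [← mem_powers_iff_mem_zpowers] at hx
    obtain ⟨t, rfl⟩ := hx
    obtain ⟨i, j, rfl⟩ := c.gen g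
    refine ⟨(lam (c.r ^ j) t : ℕ), ?_⟩
    simp only
    rw [c.D_pow i j t, ← Int.cast_smul_eq_zsmul (ZMod (p ^ c.n)), Int.cast_natCast]
  · rintro ⟨k, rfl⟩
    obtain ⟨t, ht, -⟩ := c.exists_D_pow hp2 g (k : ZMod (p ^ c.n))
    refine ⟨g ^ t, Subgroup.pow_mem _ (Subgroup.mem_zpowers g) t, ?_⟩
    rw [ht, Int.cast_smul_eq_zsmul]

/-- the class size of `g` is the additive order of `D g` -/
theorem index_centralizer_singleton [Finite G] (hp2 : p ≠ 2) (g : G) :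
    (Subgroup.centralizer ({g} : Set G)).index = addOrderOf (c.D g) := by
  have h1 := c.card_centralizer hp2 (Subgroup.zpowers g)
  rw [W_zpowers, Nat.card_zmultiples, Subgroup.zpowers_eq_closure, Subgroup.centralizer_closure] at h1
  have h2 := (Subgroup.centralizer ({g} : Set G)).index_mul_card
  rw [← h1] at h2
  exact Nat.eq_of_mul_eq_mul_right Nat.card_pos h2

/-- counting elements of `G` through `D` -/
theorem card_D_preimage [Finite G] (hp2 : p ≠ 2) (P : ZMod (p ^ c.n) × ZMod (p ^ c.n) → Prop) :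
    Nat.card {g : G // P (c.D g)} = Nat.card (Subgroup.center G) * Nat.card {v // P v} := by
  classical
  have hs := c.D_surjective hp2
  choose σ hσ using hs
  rw [← Nat.card_prod]
  apply Nat.card_congr
  symm
  refine Equiv.ofBijective (fun x => ⟨σ x.2.1 * x.1.1, ?_⟩) ⟨?_, ?_⟩
  · have h1 : c.D (σ x.2.1 * x.1.1) = x.2.1 := by
      rw [c.D_mul, (c.D_eq_zero_iff _).2 x.1.2, smul_zero, add_zero, hσ]
    rw [h1]; exact x.2.2
  · rintro ⟨⟨z, hz⟩, ⟨v, hv⟩⟩ ⟨⟨z', hz'⟩, ⟨v', hv'⟩⟩ h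
    have h0 : σ v * z = σ v' * z' := congrArg Subtype.val h
    have h1 : c.D (σ v * z) = v := by
      rw [c.D_mul, (c.D_eq_zero_iff _).2 hz, smul_zero, add_zero, hσ]
    have h1' : c.D (σ v' * z') = v' := by
      rw [c.D_mul, (c.D_eq_zero_iff _).2 hz', smul_zero, add_zero, hσ]
    have h2 : v = v' := by rw [← h1, h0, h1']
    subst h2
    have h3 : z = z' := mul_left_cancel h0
    subst h3
    rfl
  · rintro ⟨g, hg⟩
    have h1 : (σ (c.D g))⁻¹ * g ∈ Subgroup.center G := by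
      rw [← c.D_eq_D_iff, hσ]
    refine ⟨(⟨(σ (c.D g))⁻¹ * g, h1⟩, ⟨c.D g, hg⟩), ?_⟩
    apply Subtype.ext
    simp

include c in
theorem card_class_size [Finite G] (hp2 : p ≠ 2) {i : ℕ} (hi : 1 ≤ i) (hin : i ≤ c.n) :
    Nat.card {g : G // (Subgroup.centralizer ({g} : Set G)).index = p ^ i} =
      Nat.card ↥(Subgroup.center G) * (p ^ (2 * i) - p ^ (2 * i - 2)) := by
  rw [← card_addOrderOf_eq hi hin, ← card_D_preimage c hp2 (fun v => addOrderOf v = p ^ i)]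
  apply Nat.card_congr
  apply Equiv.subtypeEquivRight
  intro g
  rw [index_centralizer_singleton c hp2]

/-- the subgroup generated by the `p ^ s`-th powers -/
theorem mem_closure_pow_iff [Finite G] (hp2 : p ≠ 2) {s : ℕ} (hs : s ≤ c.n) (g : G) :
    g ∈ Subgroup.closure {x : G | ∃ y : G, y ^ p ^ s = x} ↔
      ∃ w, c.D g = ((p ^ s : ℕ) : ZMod (p ^ c.n)) • w := by
  constructor
  · intro h
    induction h using Subgroup.closure_induction with
    | mem x hx =>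
      obtain ⟨y, rfl⟩ := hx
      obtain ⟨e, he⟩ := c.D_pow_pow_mem y hp2 s
      exact ⟨e • c.D y, by rw [he, mul_smul]⟩
    | one => exact ⟨0, by rw [c.D_one, smul_zero]⟩
    | mul x y _ _ hx hy =>
      obtain ⟨w, hw⟩ := hx
      obtain ⟨w', hw'⟩ := hy
      refine ⟨w + c.chi x • w', ?_⟩
      rw [c.D_mul, hw, hw', smul_add, smul_comm]
    | inv x _ hx =>
      obtain ⟨w, hw⟩ := hx
      have h1 : c.D x⁻¹ + c.chi x⁻¹ • c.D x = 0 := by rw [← c.D_mul, inv_mul_cancel, c.D_one]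
      refine ⟨-(c.chi x⁻¹ • w), ?_⟩
      rw [eq_neg_of_add_eq_zero_left h1, hw, smul_neg, smul_comm]
  · rintro ⟨w, hw⟩
    obtain ⟨y, rfl⟩ := c.D_surjective hp2 w
    obtain ⟨t, ht, ht'⟩ := c.exists_D_pow hp2 y ((p ^ s : ℕ) : ZMod (p ^ c.n))
    obtain ⟨t', rfl⟩ := ht' s hs ⟨1, by rw [mul_one]⟩
    rw [← hw, c.D_eq_D_iff] at ht
    have h1 : y ^ (p ^ s * t') ∈ Subgroup.closure {x : G | ∃ y : G, y ^ p ^ s = x} := by
      rw [pow_mul, ← pow_mul, mul_comm, pow_mul]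
      exact Subgroup.subset_closure ⟨_, rfl⟩
    have h2 : (y ^ (p ^ s * t'))⁻¹ * g ∈ Subgroup.closure {x : G | ∃ y : G, y ^ p ^ s = x} := by
      obtain ⟨i, j, hij⟩ := c.gen ((y ^ (p ^ s * t'))⁻¹ * g)
      rw [hij] at ht ⊢
      obtain ⟨hi, hj⟩ := (c.mem_center_iff hp2 i j).1 ht
      obtain ⟨i', rfl⟩ := (pow_dvd_pow p hs).trans hi
      obtain ⟨j', rfl⟩ := (pow_dvd_pow p hs).trans hj
      apply Subgroup.mul_mem
      · exact Subgroup.subset_closure ⟨c.a ^ i', by rw [← pow_mul, mul_comm]⟩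
      · exact Subgroup.subset_closure ⟨c.b ^ j', by rw [← pow_mul, mul_comm]⟩
    have h3 := Subgroup.mul_mem _ h1 h2
    rwa [mul_inv_cancel_left] at h3

end grp

end Cfsg.Agent.H471
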